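import Cfsg.Agent.H168.CK.ESix
import Cfsg.Agent.H321.Alt

/-!
# S5745 crossk: alternating `T` in `F₄(q)`, `E₆(q)`, `²E₆(q)` (helper168)

* `f4_alt` : `F₄(q)`, `p ≠ 7`: no socle `A_n ^ k`, `k ≥ 2`, `n ≥ 7`;
* `e6_alt`, `te6_alt` : `E₆(q)`, `²E₆(q)`, `p ≠ 7`: no socle `A_n ^ k`, `k ≥ 2`, `n ≥ 9`.
-/

set_option autoImplicit false

namespace Cfsg.Agent.H168.CK

open Cfsg Cfsg.Lie Equiv
open Cfsg.Agent.H209.EPX

universe u

/-- the 7-cycle -/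
def t7 : ↥(alternatingGroup (Fin 7)) :=
  ⟨⟨![1, 2, 3, 4, 5, 6, 0], ![6, 0, 1, 2, 3, 4, 5], by decide, by decide⟩, by rw [Perm.mem_alternatingGroup]; decide +kernel⟩

/-- `x ↦ 2 x` -/
def s7 : ↥(alternatingGroup (Fin 7)) :=
  ⟨⟨![0, 2, 4, 6, 1, 3, 5], ![0, 4, 1, 5, 2, 6, 3], by decide, by decide⟩, by rw [Perm.mem_alternatingGroup]; decide +kernel⟩

/-- the 7-cycle -/
def t9 : ↥(alternatingGroup (Fin 9)) :=
  ⟨⟨![1, 2, 3, 4, 5, 6, 0, 7, 8], ![6, 0, 1, 2, 3, 4, 5, 7, 8], by decide, by decide⟩, by rw [Perm.mem_alternatingGroup]; decide +kernel⟩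

/-- `x ↦ 3 x` and a transposition -/
def s9 : ↥(alternatingGroup (Fin 9)) :=
  ⟨⟨![0, 3, 6, 2, 5, 1, 4, 8, 7], ![0, 5, 3, 1, 6, 4, 2, 8, 7], by decide, by decide⟩, by rw [Perm.mem_alternatingGroup]; decide +kernel⟩

theorem t7_pow : t7 ^ 7 = 1 := by decide +kernel
theorem t7_ne : t7 ≠ 1 := by decide +kernel
theorem s7_conj : s7 * t7 * s7⁻¹ = t7 ^ 2 := by decide +kernel
theorem t9_pow : t9 ^ 7 = 1 := by decide +kernel
theorem t9_ne : t9 ≠ 1 := by decide +kernel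
theorem s9_conj : s9 * t9 * s9⁻¹ = t9 ^ 3 := by decide +kernel

theorem exists_seven {n : ℕ} (hn : 7 ≤ n) : ∃ t s : ↥(alternatingGroup (Fin n)), t ^ 7 = 1 ∧ t ≠ 1 ∧
    s * t * s⁻¹ = t ^ 2 := by
  obtain ⟨f, hf⟩ := Cfsg.Agent.H321.Alt.exists_inj hn
  refine ⟨f t7, f s7, ?_, ?_, ?_⟩
  · rw [← map_pow, t7_pow, map_one]
  · intro h
    exact t7_ne (hf (by rw [h, map_one]))
  · rw [← map_inv, ← map_mul, ← map_mul, s7_conj, map_pow]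

theorem exists_nine {n : ℕ} (hn : 9 ≤ n) : ∃ t s : ↥(alternatingGroup (Fin n)), t ^ 7 = 1 ∧ t ≠ 1 ∧
    s * t * s⁻¹ = t ^ 3 := by
  obtain ⟨f, hf⟩ := Cfsg.Agent.H321.Alt.exists_inj hn
  refine ⟨f t9, f s9, ?_, ?_, ?_⟩
  · rw [← map_pow, t9_pow, map_one]
  · intro h
    exact t9_ne (hf (by rw [h, map_one]))
  · rw [← map_inv, ← map_mul, ← map_mul, s9_conj, map_pow]

theorem trans_el {T A : Type*} [Group T] [Group A] (i : T ≃* A) {m : ℕ}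
    (h : ∃ t s : A, t ^ 7 = 1 ∧ t ≠ 1 ∧ s * t * s⁻¹ = t ^ m) :
    ∃ t s : T, t ^ 7 = 1 ∧ t ≠ 1 ∧ s * t * s⁻¹ = t ^ m := by
  obtain ⟨t, s, h1, h2, h3⟩ := h
  refine ⟨i.symm t, i.symm s, ?_, ?_, ?_⟩
  · rw [← map_pow, h1, map_one]
  · intro h
    exact h2 (i.symm.injective (by rw [h, map_one]))
  · rw [← map_inv, ← map_mul, ← map_mul, h3, map_pow]

theorem f4_alt {F : Type u} [Field F] [Finite F] (p : ℕ) [Fact p.Prime] [CharP F p] (hp : p ≠ 7)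
    {H N : Subgroup ↥(chevF4.group F)} {T : Type} [Group T] {k : ℕ} {e : N ≃* (Fin k → T)} (h : EPS H N e)
    (hk : 2 ≤ k) {n : ℕ} (hn : 7 ≤ n) (i : T ≃* ↥(alternatingGroup (Fin n))) : False := by
  obtain ⟨t, s, h1, h2, h3⟩ := trans_el i (exists_seven hn)
  exact f4_kill p hp h hk h1 h2 h3

theorem e6_alt {F : Type u} [Field F] [Finite F] (p : ℕ) [Fact p.Prime] [CharP F p] (hp : p ≠ 7)
    {H N : Subgroup ↥(chevE6.group F)} {T : Type} [Group T] {k : ℕ} {e : N ≃* (Fin k → T)} (h : EPS H N e)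
    (hk : 2 ≤ k) {n : ℕ} (hn : 9 ≤ n) (i : T ≃* ↥(alternatingGroup (Fin n))) : False := by
  obtain ⟨t, s, h1, h2, h3⟩ := trans_el i (exists_nine hn)
  exact e6_kill p hp h hk h1 h2 h3

theorem te6_alt {K : Type u} [Field K] [Finite K] (q : ℕ) (p : ℕ) [Fact p.Prime] [CharP K p] (hp : p ≠ 7)
    {H N : Subgroup ↥(twistedE6 K q)} {T : Type} [Group T] {k : ℕ} {e : N ≃* (Fin k → T)} (h : EPS H N e)
    (hk : 2 ≤ k) {n : ℕ} (hn : 9 ≤ n) (i : T ≃* ↥(alternatingGroup (Fin n))) : False := by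
  obtain ⟨t, s, h1, h2, h3⟩ := trans_el i (exists_nine hn)
  exact te6_kill q p hp h hk h1 h2 h3

end Cfsg.Agent.H168.CK
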