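import Cfsg.Agent.H168.CK.Cfg
import Cfsg.Agent.H952.F4.Tab

/-!
# S5745 crossk: `F₄(q)`, characteristic not 7: `T ^ k`, `k ≥ 2`, `T` with an element `t` of order 7 conjugate to `t ^ 2` (helper168)

On the 27-dimensional module the elements `z` of order 7, `z ~ z ^ 2`, have a fixed space of dimension 3 or 9; the
Brauer-Wielandt formula `2 a + 3 g + 3 h = 27 + 7 d` has no solution.
-/

set_option autoImplicit false

namespace Cfsg.Agent.H168.CK

open Cfsg Cfsg.Lie Module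
open Cfsg.Agent.ChevalleyStructure.E6Min.Tables Cfsg.Agent.ChevalleyStructure.E6Min.Basic
open Cfsg.Agent.H952.F4 (ev JK)
open Cfsg.Agent.H209.EPX

universe u

theorem seven_ne {F : Type u} [Field F] {p : ℕ} [Fact p.Prime] [CharP F p] (hp : p ≠ 7) : (7 : F) ≠ 0 := by
  intro h
  have h1 : p ∣ 7 := (CharP.cast_eq_zero_iff F p 7).1 (by exact_mod_cast h)
  exact hp ((Nat.prime_dvd_prime_iff_eq Fact.out (by norm_num)).1 h1)

theorem f4_cfg {F : Type u} [Field F] [Finite F] (p : ℕ) [Fact p.Prime] [CharP F p] (hp : p ≠ 7)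
    {x y a b g : ↥(chevF4.group F)} (C : Cfg 7 2 x y a b g) : False := by
  obtain ⟨ρ, hρ⟩ := Cfsg.Agent.H952.F4.JMod.exists_isJ F
  have T := Cfsg.Agent.H952.F4.Tor.tab_finite p hρ
  obtain ⟨d, hd⟩ := C.sum2 (JK ρ) (seven_ne hp)
  have dim : finrank F (I27 → F) = 27 := by
    rw [Module.finrank_fintype_fun_eq_card]
    rfl
  have cls : ∀ i, ev (JK ρ (x * y ^ i)) 1 = 3 ∨ ev (JK ρ (x * y ^ i)) 1 = 9 := by
    intro i
    obtain ⟨-, -, h⟩ := T.seven_rat hp (x * y ^ i) (C.ne i) (C.pow_r i) ⟨b * a, C.ba_act i⟩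
    rcases h with h | h
    · exact Or.inl h.1
    · exact Or.inr h.1
  have h0 := cls 0
  rw [pow_zero, mul_one] at h0
  have h1 := cls 1
  have h3 := cls 3
  rw [dim] at hd
  omega

/-- **`F₄(q)`, `p ≠ 7`: no socle `T ^ k`, `k ≥ 2`, when `T` has an element of order 7 conjugate to its square.** -/
theorem f4_kill {F : Type u} [Field F] [Finite F] (p : ℕ) [Fact p.Prime] [CharP F p] (hp : p ≠ 7)
    {H N : Subgroup ↥(chevF4.group F)} {T : Type} [Group T] {k : ℕ} {e : N ≃* (Fin k → T)} (h : EPS H N e)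
    (hk : 2 ≤ k) {t s : T} (ht : t ^ 7 = 1) (ht1 : t ≠ 1) (hs : s * t * s⁻¹ = t ^ 2) : False := by
  obtain ⟨x, y, a, b, g, C⟩ := cfg_of_EPS h hk ht ht1 hs
  exact f4_cfg p hp C

end Cfsg.Agent.H168.CK
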